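import Cfsg.Agent.WreathEight.Main

/-!
The normaliser of the wreathed subgroup and its quotient by the centre.
-/

set_option autoImplicit false
set_option linter.style.haveILetI false

namespace CfsgLib.WreathEight

open Subgroup

theorem card_center_W : Nat.card (center W) = 2 :=
  (card_filter {1, zz} fun w => by
    constructor
    · intro h
      rcases center_elt w (fun g => (mem_center_iff.mp h g).symm) with rfl | rfl <;> simp
    · intro h
      simp only [Finset.mem_insert, Finset.mem_singleton] at h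
      rcases h with rfl | rfl
      · exact one_mem _
      · exact mem_center_iff.mpr fun g => (zz_central g).symm).trans (by decide +kernel)

variable {S : Type*} [Group S] [Finite S]

theorem card_range (ι : W →* S) (hι : Function.Injective ι) : Nat.card ι.range = 128 := by
  rw [← Nat.card_congr (MonoidHom.ofInjective hι).toEquiv, card_W]

theorem center_eq (hS : IsPGroup 2 S) (hr : Cfsg.SectionalPRankLE 2 4 S) (ι : W →* S) (hι : Function.Injective ι) :
    center S = (center W).map ι ∧ ι zz ∈ center S ∧ Nat.card (center S) = 2 := by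
  have hle : ∀ c ∈ center S, c = 1 ∨ c = ι zz := by
    intro c hc
    obtain ⟨w, rfl⟩ := centralizer_le hS hr ι hι (mem_centralizer_iff.mpr fun u _ => mem_center_iff.mp hc u)
    rcases center_elt w (fun g => hι (by rw [map_mul, map_mul]; exact (mem_center_iff.mp hc _).symm)) with rfl | rfl
    · exact .inl (map_one ι)
    · exact .inr rfl
  haveI : Nontrivial S := ⟨⟨ι zz, 1, fun e => absurd (hι (e.trans (map_one ι).symm)) (by decide +kernel)⟩⟩
  haveI := hS.center_nontrivial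
  obtain ⟨⟨c, hc⟩, hc1⟩ := exists_ne (1 : center S)
  have hz : ι zz ∈ center S := by
    rcases hle c hc with rfl | rfl
    · exact absurd rfl hc1
    · exact hc
  have heq : center S = (center W).map ι := by
    refine le_antisymm (fun c hc => ?_) ?_
    · rcases hle c hc with rfl | rfl
      · exact one_mem _
      · exact ⟨zz, mem_center_iff.mpr fun g => (zz_central g).symm, rfl⟩
    · rintro _ ⟨w, hw, rfl⟩
      rcases center_elt w (fun g => (mem_center_iff.mp hw g).symm) with rfl | rfl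
      · rw [map_one]; exact one_mem _
      · exact hz
  exact ⟨heq, hz, by rw [heq, Subgroup.card_map_of_injective hι, card_center_W]⟩

theorem mem_of_stable' (hS : IsPGroup 2 S) (hr : Cfsg.SectionalPRankLE 2 4 S) (ι : W →* S) (hι : Function.Injective ι)
    (k : Fin 2) : normalizer (ι.range : Set S) ⊓ normalizer (((vsub k).map ι : Subgroup S) : Set S) ≤ ι.range := by
  rintro x ⟨hx, hxv⟩
  obtain ⟨f, hf, hfx⟩ := exists_conj ι hι hx
  have hk : (vsub k).map f = vsub k := by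
    refine Subgroup.eq_of_le_of_card_ge ?_ (by rw [Subgroup.card_map_of_injective hf])
    rintro _ ⟨v, hv, rfl⟩
    obtain ⟨v', hv', e⟩ := (Subgroup.mem_normalizer_iff.mp hxv _).mp ⟨v, hv, rfl⟩
    rwa [hι ((hfx v).trans e.symm)]
  have h0 : (vsub 0).map f = vsub 0 := by
    fin_cases k
    · exact hk
    · rcases image_cases f hf 0 with h | h
      · exact h
      · exact absurd (Subgroup.map_injective hf (h.trans hk.symm)) vsub_ne
  refine mem_of_stable hS hr ι hι ⟨hx, Subgroup.mem_normalizer_iff.mpr fun u => ⟨?_, ?_⟩⟩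
  · rintro ⟨v, hv, rfl⟩
    exact ⟨f v, h0.le ⟨v, hv, rfl⟩, hfx v⟩
  · rintro ⟨v, hv, e⟩
    obtain ⟨v₀, hv₀, rfl⟩ := h0.ge hv
    exact ⟨v₀, hv₀, mul_left_cancel (mul_right_cancel ((hfx v₀).symm.trans e))⟩

theorem lt_normalizer (hS : IsPGroup 2 S) {R : Subgroup S} (h : R ≠ ⊤) : R < normalizer (R : Set S) := by
  haveI := hS.isNilpotent
  exact normalizerCondition_of_isNilpotent R (lt_top_iff_ne_top.mpr h)

/-- Elements outside swap the two subgroups. -/
theorem swaps (hS : IsPGroup 2 S) (hr : Cfsg.SectionalPRankLE 2 4 S) (ι : W →* S) (hι : Function.Injective ι)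
    {x : S} (hx : x ∈ normalizer (ι.range : Set S)) (hxR : x ∉ ι.range) {f : W →* W} (hf : Function.Injective f)
    (hfx : ∀ w, ι (f w) = x * ι w * x⁻¹) : (vsub 0).map f = vsub 1 ∧ (vsub 1).map f = vsub 0 := by
  have hne : ∀ k, (vsub k).map f ≠ vsub k := fun k hk => hxR (mem_of_stable' hS hr ι hι k ⟨hx,
    Subgroup.mem_normalizer_iff.mpr fun u => ⟨by rintro ⟨v, hv, rfl⟩; exact ⟨f v, hk.le ⟨v, hv, rfl⟩, hfx v⟩, by
      rintro ⟨v, hv, e⟩
      obtain ⟨v₀, hv₀, rfl⟩ := hk.ge hv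
      exact ⟨v₀, hv₀, mul_left_cancel (mul_right_cancel ((hfx v₀).symm.trans e))⟩⟩⟩)
  exact ⟨(image_cases f hf 0).resolve_left (hne 0), (image_cases f hf 1).resolve_right (hne 1)⟩

theorem relIndex_eq_two (hS : IsPGroup 2 S) (hr : Cfsg.SectionalPRankLE 2 4 S) (ι : W →* S) (hι : Function.Injective ι)
    (htop : ι.range ≠ ⊤) : ι.range.relIndex (normalizer (ι.range : Set S)) = 2 := by
  obtain ⟨y, hy, hyR⟩ := SetLike.exists_of_lt (lt_normalizer hS htop)
  obtain ⟨f, hf, hfy⟩ := exists_conj ι hι hy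
  obtain ⟨hy0, -⟩ := swaps hS hr ι hι hy hyR hf hfy
  refine Subgroup.index_eq_two_iff.mpr ⟨⟨y, hy⟩, fun b => ?_⟩
  simp only [Subgroup.mem_subgroupOf, Subgroup.coe_mul]
  by_cases hb : (b : S) ∈ ι.range
  · exact .inr ⟨hb, fun h => hyR (by simpa using ι.range.mul_mem (ι.range.inv_mem hb) h)⟩
  refine .inl ⟨?_, hb⟩
  obtain ⟨g, hg, hgb⟩ := exists_conj ι hι b.2
  obtain ⟨-, hb1⟩ := swaps hS hr ι hι b.2 hb hg hgb
  refine mem_of_stable' hS hr ι hι 0 ⟨Subgroup.mul_mem _ b.2 hy, Subgroup.mem_normalizer_iff.mpr fun u => ?_⟩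
  have hmap : (vsub 0).map (g.comp f) = vsub 0 := by rw [← Subgroup.map_map, hy0, hb1]
  have hcomp : ∀ w, ι (g (f w)) = (b : S) * y * ι w * ((b : S) * y)⁻¹ := fun w => by rw [hgb, hfy]; group
  constructor
  · rintro ⟨v, hv, rfl⟩
    exact ⟨g (f v), hmap.le ⟨v, hv, rfl⟩, hcomp v⟩
  · rintro ⟨v, hv, e⟩
    obtain ⟨v₀, hv₀, rfl⟩ := hmap.ge hv
    exact ⟨v₀, hv₀, mul_left_cancel (mul_right_cancel ((hcomp v₀).symm.trans e))⟩

theorem surj_of_gens (φ : W →* W) (h1 : U1 ∈ φ.range) (h2 : S1 ∈ φ.range) (h3 : T ∈ φ.range) : Function.Surjective φ := by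
  have h4 : S2 ∈ φ.range := rel_facts.2.2.2.1 ▸ φ.range.mul_mem (φ.range.mul_mem h3 h2) (φ.range.inv_mem h3)
  have h5 : U2 ∈ φ.range := rel_facts.2.2.2.2.1 ▸ φ.range.mul_mem (φ.range.mul_mem h3 h1) (φ.range.inv_mem h3)
  have hb : ∀ w, inB w = true → w ∈ φ.range := fun w hw => by
    obtain ⟨i, j, k, l, rfl⟩ := base_word w hw
    exact φ.range.mul_mem (φ.range.mul_mem (φ.range.pow_mem (φ.range.mul_mem h1 h2) _) (φ.range.pow_mem h2 _))
      (φ.range.mul_mem (φ.range.pow_mem (φ.range.mul_mem h5 h4) _) (φ.range.pow_mem h4 _))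
  intro w
  rcases top_split w with h | h
  · exact hb w h
  · have := φ.range.mul_mem (hb _ h) (φ.range.inv_mem h3)
    rwa [mul_inv_cancel_right] at this

/-- Changing coordinates to make the image of `S1` equal to `U1`. -/
theorem reparam {e : W} (he : inZ e = true) : ∃ φ : W →* W, Function.Bijective φ ∧ φ S1 = S1 ∧ φ U1 = U1 * e := by
  obtain ⟨h4, hbab, haa, hab, hbb, hsq⟩ := endo_rel e he
  let hR : Rel (U1 * e * S1) S1 T := ⟨h4, rel_facts.1, hbab, rel_facts.2.2.1, haa, hab, hbb⟩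
  have hU : hR.hom U1 = U1 * e := by
    have h := congrArg hR.hom misc.2.1
    rw [map_mul, hR.hom_R1, hR.hom_S1, mul_assoc, rel_facts.1, mul_one] at h
    exact h.symm
  have hsurj : Function.Surjective hR.hom := by
    refine surj_of_gens _ ?_ ⟨S1, hR.hom_S1⟩ ⟨T, hR.hom_T⟩
    have hz1 : Z1 ∈ hR.hom.range := ⟨R1 * R1, by rw [map_mul, hR.hom_R1, hsq]⟩
    have hT : T ∈ hR.hom.range := ⟨T, hR.hom_T⟩
    have hz2 := hR.hom.range.mul_mem (hR.hom.range.mul_mem hT hz1) (hR.hom.range.inv_mem hT)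
    have hemem : e ∈ hR.hom.range := by
      rcases zsub_cases e he with rfl | rfl | rfl | rfl
      · exact one_mem _
      · exact hz1
      · exact hz2
      · exact mul_mem hz1 hz2
    simpa using hR.hom.range.mul_mem (⟨U1, hU⟩ : U1 * e ∈ hR.hom.range) (hR.hom.range.inv_mem hemem)
  exact ⟨hR.hom, ⟨Finite.injective_iff_surjective.mpr hsurj, hsurj⟩, hR.hom_S1, hU⟩

/-- A normal form for an element outside. -/
theorem exists_normal_form (hS : IsPGroup 2 S) (hr : Cfsg.SectionalPRankLE 2 4 S) (ι₀ : W →* S)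
    (hι₀ : Function.Injective ι₀) (htop : ι₀.range ≠ ⊤) :
    ∃ (ι : W →* S) (y : S) (f : W →* W) (c : W), Function.Injective ι ∧ ι.range = ι₀.range ∧
      y ∈ normalizer (ι.range : Set S) ∧ y ∉ ι.range ∧ (∀ w, y * ι w = ι (f w) * y) ∧ y * y = ι c ∧
      f S1 = U1 ∧ f U1 = S1 * Z1 ∧ f T = T ∧ (c = el (DihedralGroup.r 1) (DihedralGroup.r 1) ∨
        c = el (DihedralGroup.r 3) (DihedralGroup.r 3)) := by
  obtain ⟨y₀, hy₀, hy₀R⟩ := SetLike.exists_of_lt (lt_normalizer hS htop)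
  -- send `S1` into the class of `U1`
  obtain ⟨y₁, hy₁, hy₁R, f₁, hf₁, hfy₁, hS₁⟩ : ∃ y, y ∈ normalizer (ι₀.range : Set S) ∧ y ∉ ι₀.range ∧
      ∃ f : W →* W, Function.Injective f ∧ (∀ w, ι₀ (f w) = y * ι₀ w * y⁻¹) ∧ inZ (U1⁻¹ * f S1) = true := by
    obtain ⟨f, hf, hfy⟩ := exists_conj ι₀ hι₀ hy₀
    obtain ⟨h0, h1⟩ := swaps hS hr ι₀ hι₀ hy₀ hy₀R hf hfy
    have hz := image_zsub f hf
    have him : ∀ v w : W, inV 0 v = true → inV 1 w = true → inZ v = false → inZ w = false → v * w = w * v →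
        inZ (U1⁻¹ * f v) = true ∨ inZ (U2⁻¹ * f v) = true := fun v w hv hw hv' hw' hc =>
      noncentral_v' (f v) ((mem_v1 _).mp (h0.le ⟨v, hv, rfl⟩)) (Bool.eq_false_iff.mpr fun e => by simp [(hz v).mp e] at hv')
        ⟨f w, (mem_v0 _).mp (h1.le ⟨w, hw, rfl⟩), Bool.eq_false_iff.mpr fun e => by simp [(hz w).mp e] at hw',
          by rw [← map_mul, hc, map_mul]⟩
    rcases him S1 U2 (by decide +kernel) (by decide +kernel) (by decide +kernel) (by decide +kernel) (by decide +kernel) with e | e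
    · exact ⟨y₀, hy₀, hy₀R, f, hf, hfy, e⟩
    · refine ⟨y₀ * ι₀ T, Subgroup.mul_mem _ hy₀ (Subgroup.le_normalizer ⟨T, rfl⟩), fun h => hy₀R (by
        simpa using ι₀.range.mul_mem h (ι₀.range.inv_mem ⟨T, rfl⟩)), f.comp (MulAut.conj T).toMonoidHom,
        hf.comp (MulAut.conj T).injective, fun w => conj_mul hfy T w, ?_⟩
      show inZ (U1⁻¹ * f (T * S1 * T⁻¹)) = true
      rw [rel_facts.2.2.2.1]
      refine (him S2 U1 (by decide +kernel) (by decide +kernel) (by decide +kernel) (by decide +kernel) (by decide +kernel)).resolve_right ?_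
      intro e'
      have : inZ (f (S1⁻¹ * S2)) = true := by
        rw [map_mul, map_inv]
        simpa [mul_assoc, mem_zsub] using zsub.mul_mem (zsub.inv_mem e) e'
      rw [hz, misc.2.2.2.2.2.2.2.2.2.2.1] at this
      exact Bool.noConfusion this
  obtain ⟨φ, hφ, hφS, hφU⟩ := reparam hS₁
  set ι := ι₀.comp φ with hιdef
  have hι : Function.Injective ι := hι₀.comp hφ.1
  have hrange : ι.range = ι₀.range := by
    rw [hιdef, MonoidHom.range_comp, MonoidHom.range_eq_top.mpr hφ.2, ← MonoidHom.range_eq_map]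
  have hy₁' : y₁ ∈ normalizer (ι.range : Set S) := by rw [hrange]; exact hy₁
  have hy₁R' : y₁ ∉ ι.range := by rw [hrange]; exact hy₁R
  obtain ⟨f₂, hf₂, hfy₂⟩ := exists_conj ι hι hy₁'
  have hS₂ : f₂ S1 = U1 := hι (by
    rw [hfy₂]
    show y₁ * ι₀ (φ S1) * y₁⁻¹ = ι₀ (φ U1)
    rw [hφS, hφU, ← hfy₁, mul_inv_cancel_left])
  -- the image of `U1`
  obtain ⟨h0, h1⟩ := swaps hS hr ι hι hy₁' hy₁R' hf₂ hfy₂
  have hU₂ : inZ (S1⁻¹ * f₂ U1) = true := by
    refine (noncentral_v (f₂ U1) ((mem_v0 _).mp (h1.le ⟨U1, (mem_v1 _).mpr (by decide +kernel), rfl⟩))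
      (Bool.eq_false_iff.mpr fun e => absurd ((image_zsub f₂ hf₂ U1).mp e) (by decide +kernel))
      ⟨f₂ S2, (mem_v1 _).mp (h0.le ⟨S2, (mem_v0 _).mpr (by decide +kernel), rfl⟩),
        Bool.eq_false_iff.mpr fun e => absurd ((image_zsub f₂ hf₂ S2).mp e) (by decide +kernel),
        by rw [← map_mul, ← map_mul]; exact congrArg f₂ (by decide +kernel)⟩).resolve_right ?_
    intro e
    have := (commute_table _ _ e zsub.one_mem).2.2.2.1
    rw [mul_inv_cancel_left, mul_one, ← hS₂, ← map_mul, ← map_mul] at this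
    have hne : S2 * S1 = S1 * S2 ∧ U1 * S1 ≠ S1 * U1 := by decide +kernel
    have h2 := hf₂ this
    rw [hS₂] at h2
    exact hne.2 h2
  have hfix : f₂ Z1 = Z1 := by
    have hc := commute_table _ _ hU₂ zsub.one_mem
    conv_lhs => rw [← rel_facts.2.2.2.2.2.1]
    simp only [map_mul, hS₂]
    rw [show f₂ U1 = S1 * (S1⁻¹ * f₂ U1) from (mul_inv_cancel_left _ _).symm]
    have hsq : ∀ e : W, inZ e = true → S1 * e * U1 * (S1 * e * U1) = Z1 := by decide +kernel
    exact hsq _ hU₂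
  -- the square
  have hsqmem : ∀ y : S, y ∈ normalizer (ι.range : Set S) → y ∉ ι.range → y * y ∈ ι.range := by
    intro y hy hyR
    have hidx : ι.range.relIndex (normalizer (ι.range : Set S)) = 2 :=
      relIndex_eq_two hS hr ι hι (by rw [hrange]; exact htop)
    have := Subgroup.mul_mem_iff_of_index_two (H := ι.range.subgroupOf (normalizer (ι.range : Set S))) hidx
      (a := ⟨y, hy⟩) (b := ⟨y, hy⟩)
    exact Subgroup.mem_subgroupOf.mp (this.mpr Iff.rfl)
  obtain ⟨c₂, hc₂⟩ := hsqmem y₁ hy₁' hy₁R'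
  have hconj : ∀ (y : S) (f : W →* W) (c : W), (∀ w, ι (f w) = y * ι w * y⁻¹) → ι c = y * y →
      ∀ w, c * w * c⁻¹ = f (f w) := fun y f c hfy hc w => hι (by
    rw [hfy, hfy, map_mul, map_mul, map_inv, hc]; group)
  obtain ⟨y₃, hy₃, hy₃R, f₃, hf₃, hfy₃, hS₃, hU₃⟩ : ∃ y, y ∈ normalizer (ι.range : Set S) ∧ y ∉ ι.range ∧
      ∃ f : W →* W, Function.Injective f ∧ (∀ w, ι (f w) = y * ι w * y⁻¹) ∧ f S1 = U1 ∧ f U1 = S1 * Z1 := by
    have hcase := conj_eps c₂ _ hU₂ (by rw [hconj y₁ f₂ c₂ hfy₂ hc₂, hS₂, mul_inv_cancel_left])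
    rcases hcase with e | e
    · refine ⟨y₁ * ι S1, Subgroup.mul_mem _ hy₁' (Subgroup.le_normalizer ⟨S1, rfl⟩), fun h => hy₁R' (by
        simpa using ι.range.mul_mem h (ι.range.inv_mem ⟨S1, rfl⟩)), f₂.comp (MulAut.conj S1).toMonoidHom,
        hf₂.comp (MulAut.conj S1).injective, fun w => conj_mul hfy₂ S1 w, ?_, ?_⟩
      · show f₂ (S1 * S1 * S1⁻¹) = U1
        rw [mul_inv_cancel_right, hS₂]
      · show f₂ (S1 * U1 * S1⁻¹) = S1 * Z1
        rw [misc.2.2.2.2.2.2.2.2.2.1, rel_facts.2.2.2.2.2.2.2.2.1, map_mul, hfix,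
          ← mul_inv_cancel_left S1 (f₂ U1), e, mul_one]
    · exact ⟨y₁, hy₁', hy₁R', f₂, hf₂, hfy₂, hS₂, by rw [← e, mul_inv_cancel_left]⟩
  -- the image of `T`
  have hT3 : inB (f₃ T) = false := by
    obtain ⟨g0, g1⟩ := swaps hS hr ι hι hy₃ hy₃R hf₃ hfy₃
    by_contra hb
    rw [Bool.not_eq_false] at hb
    have himg : ∀ w, f₃ w ∈ base := by
      intro w
      have hS' : f₃ S1 ∈ base := by rw [hS₃, mem_base]; decide +kernel
      have hU' : f₃ U1 ∈ base := by rw [hU₃, mem_base]; decide +kernel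
      have hS2' : f₃ S2 ∈ base := by
        rw [← rel_facts.2.2.2.1, map_mul, map_mul, map_inv]
        exact base.mul_mem (base.mul_mem hb hS') (base.inv_mem hb)
      have hU2' : f₃ U2 ∈ base := by
        rw [← rel_facts.2.2.2.2.1, map_mul, map_mul, map_inv]
        exact base.mul_mem (base.mul_mem hb hU') (base.inv_mem hb)
      have hbase : ∀ v, inB v = true → f₃ v ∈ base := by
        intro v hv
        obtain ⟨i, j, k, l, rfl⟩ := base_word v hv
        simp only [map_mul, map_pow]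
        exact base.mul_mem (base.mul_mem (base.pow_mem (base.mul_mem hU' hS') _) (base.pow_mem hS' _))
          (base.mul_mem (base.pow_mem (base.mul_mem hU2' hS2') _) (base.pow_mem hS2' _))
      rcases top_split w with h | h
      · exact hbase w h
      · have := base.mul_mem (hbase _ h) (base.inv_mem hb)
        rwa [map_mul, mul_inv_cancel_right] at this
    obtain ⟨w, hw⟩ := Finite.surjective_of_injective hf₃ T
    have := himg w
    rw [hw, mem_base, misc.2.2.2.2.2.2.2.1] at this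
    exact Bool.noConfusion this
  obtain ⟨hbT, β, hβ⟩ := image_T (f₃ T) (by rw [← map_mul, rel_facts.2.2.1, map_one]) hT3
  -- preimage of `(β, 1)` in the first factor
  obtain ⟨δ, hδ⟩ : ∃ δ : DihedralGroup 4, f₃ (el δ 1) = el β 1 := by
    have hgen : ∀ d : DihedralGroup 4, ∃ (i : Fin 4) (j : Fin 2), el d 1 = (U1 * S1) ^ (i : ℕ) * S1 ^ (j : ℕ) := by
      decide +kernel
    have hclosed : ∀ d : DihedralGroup 4, ∃ d', f₃ (el d 1) = el d' 1 := by
      intro d
      obtain ⟨i, j, hij⟩ := hgen d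
      rw [hij, map_mul, map_pow, map_pow, map_mul, hS₃, hU₃]
      exact (by decide +kernel : ∀ (i : Fin 4) (j : Fin 2), ∃ d' : DihedralGroup 4,
        (S1 * Z1 * U1) ^ (i : ℕ) * U1 ^ (j : ℕ) = el d' 1) i j
    choose g hg using hclosed
    have hginj : Function.Injective g := fun a b h => by
      have h' : el a 1 = el b 1 := hf₃ (by rw [hg, hg, h])
      have := congrArg (fun w : W => w.left.1) h'
      simpa [el] using this
    obtain ⟨δ, hδ⟩ := Finite.surjective_of_injective hginj β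
    exact ⟨δ, by rw [hg, hδ]⟩
  set y₄ := y₃ * ι (el δ 1) with hy₄def
  have hfy₄ : ∀ w, ι ((f₃.comp (MulAut.conj (el δ 1)).toMonoidHom) w) = y₄ * ι w * y₄⁻¹ := fun w =>
    conj_mul hfy₃ (el δ 1) w
  set f₄ := f₃.comp (MulAut.conj (el δ 1)).toMonoidHom with hf₄def
  have happ : ∀ w, f₄ w = el β 1 * f₃ w * (el β 1)⁻¹ := fun w => by
    show f₃ (el δ 1 * w * (el δ 1)⁻¹) = _
    rw [map_mul, map_mul, map_inv, hδ]
  have hT₄ : f₄ T = T := by
    rw [happ, hβ]
    exact (by decide +kernel : ∀ b : DihedralGroup 4, el b 1 * (T * el b b⁻¹) * (el b 1)⁻¹ = T) β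
  -- conjugation by the first factor may move `S1` and `U1`; undo it
  obtain ⟨y, hy, hyR, f, hfy, hfS, hfU, hfT⟩ : ∃ y, y ∈ normalizer (ι.range : Set S) ∧ y ∉ ι.range ∧
      ∃ f : W →* W, (∀ w, ι (f w) = y * ι w * y⁻¹) ∧ f S1 = U1 ∧ f U1 = S1 * Z1 ∧ f T = T := by
    have hy₄ : y₄ ∈ normalizer (ι.range : Set S) := Subgroup.mul_mem _ hy₃ (Subgroup.le_normalizer ⟨_, rfl⟩)
    have hy₄R : y₄ ∉ ι.range := fun h => hy₃R (by simpa [y₄] using ι.range.mul_mem h (ι.range.inv_mem ⟨el δ 1, rfl⟩))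
    refine ⟨ι (el β⁻¹ β⁻¹) * y₄, Subgroup.mul_mem _ (Subgroup.le_normalizer ⟨_, rfl⟩) hy₄, fun h => hy₄R (by
      simpa using ι.range.mul_mem (ι.range.inv_mem ⟨el β⁻¹ β⁻¹, rfl⟩) h), (MulAut.conj (el β⁻¹ β⁻¹)).toMonoidHom.comp f₄,
      fun w => ?_, ?_, ?_, ?_⟩
    · show ι (el β⁻¹ β⁻¹ * f₄ w * (el β⁻¹ β⁻¹)⁻¹) = _
      rw [map_mul, map_mul, map_inv, hfy₄]; group
    · show el β⁻¹ β⁻¹ * f₄ S1 * (el β⁻¹ β⁻¹)⁻¹ = U1
      rw [happ, hS₃]
      exact (by decide +kernel : ∀ b : DihedralGroup 4, el b⁻¹ b⁻¹ * (el b 1 * U1 * (el b 1)⁻¹) * (el b⁻¹ b⁻¹)⁻¹ = U1) β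
    · show el β⁻¹ β⁻¹ * f₄ U1 * (el β⁻¹ β⁻¹)⁻¹ = S1 * Z1
      rw [happ, hU₃]
      exact (by decide +kernel : ∀ b : DihedralGroup 4,
        el b⁻¹ b⁻¹ * (el b 1 * (S1 * Z1) * (el b 1)⁻¹) * (el b⁻¹ b⁻¹)⁻¹ = S1 * Z1) β
    · show el β⁻¹ β⁻¹ * f₄ T * (el β⁻¹ β⁻¹)⁻¹ = T
      rw [hT₄]
      exact (by decide +kernel : ∀ b : DihedralGroup 4, el b⁻¹ b⁻¹ * T * (el b⁻¹ b⁻¹)⁻¹ = T) β
  obtain ⟨c, hc⟩ := hsqmem y hy hyR
  have hcw := hconj y f c hfy hc
  have hfc : f c = c := hι (by rw [hfy, hc]; group)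
  refine ⟨ι, y, f, c, hι, hrange, hy, hyR, fun w => by rw [hfy, inv_mul_cancel_right], hc.symm, hfS, hfU, hfT, ?_⟩
  have hfz : f Z1 = Z1 := by
    conv_lhs => rw [← rel_facts.2.2.2.2.2.1]
    simp only [map_mul, hfS, hfU]
    decide +kernel
  refine sq_cases c ?_ ?_ ?_
  · rw [hcw, hfS, hfU]
  · rw [hcw, hfU, map_mul, hfS, hfz]
  · have := hcw T
    rw [hfT, hfT, mul_inv_eq_iff_eq_mul] at this
    exact this

/-- The normaliser modulo the centre is again the wreath product. -/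
theorem normalizer_quotient (hS : IsPGroup 2 S) (hr : Cfsg.SectionalPRankLE 2 4 S) (ι₀ : W →* S)
    (hι₀ : Function.Injective ι₀) (htop : ι₀.range ≠ ⊤) :
    ∃ _ : ((center S).subgroupOf (normalizer (ι₀.range : Set S))).Normal,
      Nonempty (W ≃* ↥(normalizer (ι₀.range : Set S)) ⧸ (center S).subgroupOf (normalizer (ι₀.range : Set S))) := by
  obtain ⟨ι, y, f, c, hι, hrange, hy, hyR, hyw, hyy, hfS, hfU, hfT, hc⟩ := exists_normal_form hS hr ι₀ hι₀ htop
  obtain ⟨-, hzz, hcard2⟩ := center_eq hS hr ι hι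
  rw [← hrange]
  rw [← hrange] at htop
  set N := normalizer (ι.range : Set S)
  haveI hn : ((center S).subgroupOf N).Normal := ⟨fun n hn g => by
    have : g * n * g⁻¹ = n := Subtype.ext (by
      show (g : S) * n * (g : S)⁻¹ = n
      have h : (g : S) * n = n * g := mem_center_iff.mp hn g
      rw [h, mul_inv_cancel_right])
    rwa [this]⟩
  refine ⟨hn, ?_⟩
  let q := QuotientGroup.mk' ((center S).subgroupOf N)
  let j : W →* ↥N ⧸ (center S).subgroupOf N :=
    q.comp ((Subgroup.inclusion Subgroup.le_normalizer).comp ι.rangeRestrict)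
  set Y := q ⟨y, hy⟩
  have hYw : ∀ w, Y * j w = j (f w) * Y := fun w => congrArg q (Subtype.ext (hyw w))
  have hYY : Y * Y = j c := congrArg q (Subtype.ext hyy)
  have hjz : j zz = 1 := (QuotientGroup.eq_one_iff _).mpr hzz
  have hz1 : ∀ w : W, w = 1 ∨ w = zz → j w = 1 := fun w h => by rcases h with rfl | rfl; exacts [map_one j, hjz]
  have hz2 : ∀ u v : W, u = v ∨ u = v * zz → j u = j v := fun u v h => by
    rcases h with rfl | rfl
    · rfl
    · rw [map_mul, hjz, mul_one]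
  have hfR : f R1 = R1 := by
    rw [← rel_facts.2.2.2.2.2.2.1, map_mul, hfU, hfS, rel_facts.2.2.2.2.2.2.2.2.2, rel_facts.2.2.2.2.2.2.1]
  have hfR2 : f R2 = R2 := by
    rw [← rel_facts.2.2.2.2.2.2.2.1, map_mul, map_mul, map_inv, hfT, hfR]
  have hfST : f (S1 * T * S1) = U1 * T * U1 := by rw [map_mul, map_mul, hfS, hfT]
  have hfZ : f Z1 = Z1 := by
    conv_lhs => rw [← rel_facts.2.2.2.2.2.1]
    simp only [map_mul, hfS, hfU]
    decide +kernel
  obtain ⟨hsq4, hinv, hcomm⟩ := sq_facts c hc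
  set A := j R1 * Y with hA
  have hAA : A * A = j (R1 * R1 * c) := by
    rw [hA, mul_assoc, ← mul_assoc Y, hYw, hfR, mul_assoc (j R1), hYY, map_mul, map_mul, mul_assoc]
  have hAt : j S1 * A * (j S1)⁻¹ = j Z1 * Y := by
    rw [hA, ← map_inv, mul_assoc, mul_assoc (j R1), hYw, misc.2.2.2.2.2.2.2.2.2.1, hfS, ← mul_assoc (j R1),
      ← mul_assoc, ← map_mul, ← map_mul, ← mul_assoc S1, misc.1]
  have hTt : j S1 * j T * (j S1)⁻¹ = j (S1 * T * S1) := by
    rw [← map_inv, misc.2.2.2.2.2.2.2.2.2.1, map_mul, map_mul]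
  have hBAB : j T * A * j T = j R2 * Y := by
    rw [hA, ← mul_assoc, mul_assoc (j T * j R1) Y, hYw, hfT, ← mul_assoc, ← map_mul, ← map_mul]
    congr 2
  have hrel : Rel A (j T) (j S1) := by
    refine ⟨?_, ?_, ?_, ?_, ?_, ?_, ?_⟩
    · rw [show (4 : ℕ) = 2 * 2 from rfl, pow_mul, pow_two, pow_two, hAA, ← map_mul]
      exact hz1 _ hsq4
    · rw [← map_mul, rel_facts.2.2.1, map_one]
    · refine eq_inv_of_mul_eq_one_left ?_
      rw [hBAB, hA, mul_assoc, ← mul_assoc Y, hYw, hfR, mul_assoc (j R1), hYY, ← mul_assoc, ← map_mul, ← map_mul]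
      exact hz1 _ hinv
    · rw [← map_mul, rel_facts.1, map_one]
    · show A * (j S1 * A * (j S1)⁻¹) = j S1 * A * (j S1)⁻¹ * A
      rw [hAt, hA, mul_assoc, ← mul_assoc Y, hYw, hfZ, mul_assoc (j Z1) Y (j R1 * Y), ← mul_assoc Y, hYw, hfR,
        mul_assoc (j Z1) Y Y, mul_assoc (j R1) Y Y, hYY, ← map_mul, ← map_mul, ← map_mul, ← map_mul, hcomm]
    · show A * (j S1 * j T * (j S1)⁻¹) = j S1 * j T * (j S1)⁻¹ * A
      rw [hTt, hA, mul_assoc, hYw, hfST, ← mul_assoc, ← mul_assoc, ← map_mul, ← map_mul]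
      exact congrArg (· * Y) (hz2 _ _ swap_facts)
    · show j T * (j S1 * j T * (j S1)⁻¹) = j S1 * j T * (j S1)⁻¹ * j T
      rw [hTt, ← map_mul, ← map_mul]
      exact hz2 _ _ bb_facts
  have hAm : A ∈ hrel.hom.range := ⟨R1, hrel.hom_R1⟩
  have hTm : j T ∈ hrel.hom.range := ⟨S1, hrel.hom_S1⟩
  have hSm : j S1 ∈ hrel.hom.range := ⟨T, hrel.hom_T⟩
  have h1 : j (R1 * Z1⁻¹) ∈ hrel.hom.range := by
    have := hrel.hom.range.mul_mem hAm (hrel.hom.range.inv_mem
      (hrel.hom.range.mul_mem (hrel.hom.range.mul_mem hSm hAm) (hrel.hom.range.inv_mem hSm)))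
    have e : A * (j S1 * A * (j S1)⁻¹)⁻¹ = j (R1 * Z1⁻¹) := by
      rw [hAt, mul_inv_rev, hA, mul_assoc, mul_inv_cancel_left, ← map_inv, ← map_mul]
    exact e ▸ this
  have hZm : j Z1 ∈ hrel.hom.range := by
    have := hrel.hom.range.mul_mem h1 h1
    rwa [← map_mul, misc.2.2.1] at this
  have hRm : j R1 ∈ hrel.hom.range := by
    have := hrel.hom.range.mul_mem h1 hZm
    rwa [← map_mul, inv_mul_cancel_right] at this
  have hYm : Y ∈ hrel.hom.range := by
    have := hrel.hom.range.mul_mem (hrel.hom.range.inv_mem hRm) hAm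
    have e : (j R1)⁻¹ * A = Y := inv_mul_cancel_left _ _
    exact e ▸ this
  have hUm : j U1 ∈ hrel.hom.range := by
    have := hrel.hom.range.mul_mem hRm hSm
    rwa [← map_mul, misc.2.1] at this
  have hjW : ∀ w, j w ∈ hrel.hom.range := by
    have hS2m : j S2 ∈ hrel.hom.range := by
      rw [← rel_facts.2.2.2.1, map_mul, map_mul, map_inv]
      exact hrel.hom.range.mul_mem (hrel.hom.range.mul_mem hTm hSm) (hrel.hom.range.inv_mem hTm)
    have hU2m : j U2 ∈ hrel.hom.range := by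
      rw [← rel_facts.2.2.2.2.1, map_mul, map_mul, map_inv]
      exact hrel.hom.range.mul_mem (hrel.hom.range.mul_mem hTm hUm) (hrel.hom.range.inv_mem hTm)
    have hb : ∀ w, inB w = true → w ∈ hrel.hom.range.comap j := fun w hw => by
      obtain ⟨i, j', k, l, rfl⟩ := base_word w hw
      have m1 : U1 ∈ hrel.hom.range.comap j := hUm
      have m2 : S1 ∈ hrel.hom.range.comap j := hSm
      have m3 : U2 ∈ hrel.hom.range.comap j := hU2m
      have m4 : S2 ∈ hrel.hom.range.comap j := hS2m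
      exact mul_mem (mul_mem (pow_mem (mul_mem m1 m2) _) (pow_mem m2 _))
        (mul_mem (pow_mem (mul_mem m3 m4) _) (pow_mem m4 _))
    intro w
    rcases top_split w with h | h
    · exact hb w h
    · have := Subgroup.mul_mem _ (hb _ h) (Subgroup.inv_mem _ (show T ∈ hrel.hom.range.comap j from hTm))
      rwa [mul_inv_cancel_right] at this
  have hidx := relIndex_eq_two hS hr ι hι htop
  have hsurj : Function.Surjective hrel.hom := by
    intro u
    obtain ⟨g, rfl⟩ := QuotientGroup.mk'_surjective _ u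
    by_cases hg : (g : S) ∈ ι.range
    · obtain ⟨w, hw⟩ := hg
      have : q g = j w := congrArg q (Subtype.ext hw.symm)
      rw [show QuotientGroup.mk' _ g = q g from rfl, this]
      exact hjW w
    · have h2 : (g : S) * y⁻¹ ∈ ι.range := by
        have := (Subgroup.mul_mem_iff_of_index_two (H := ι.range.subgroupOf N) hidx (a := g) (b := ⟨y, hy⟩⁻¹)).mpr
          (iff_of_false hg (fun h => hyR (by simpa [Subgroup.mem_subgroupOf] using h)))
        simpa [Subgroup.mem_subgroupOf] using this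
      obtain ⟨w, hw⟩ := h2
      have : g = (Subgroup.inclusion Subgroup.le_normalizer (ι.rangeRestrict w)) * ⟨y, hy⟩ := Subtype.ext (by
        show (g : S) = ι w * y
        rw [hw, inv_mul_cancel_right])
      have hgq : q g = j w * Y := by rw [this, map_mul]; rfl
      rw [show QuotientGroup.mk' _ g = q g from rfl, hgq]
      exact hrel.hom.range.mul_mem (hjW w) hYm
  have hcardQ : Nat.card (↥N ⧸ (center S).subgroupOf N) = 128 := by
    have h1 := Subgroup.card_eq_card_quotient_mul_card_subgroup ((center S).subgroupOf N)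
    have hZN : center S ≤ N := Subgroup.center_le_normalizer _
    rw [Nat.card_congr (Subgroup.subgroupOfEquivOfLe hZN).toEquiv, hcard2] at h1
    have h2 : Nat.card (ι.range.subgroupOf N) * (ι.range.subgroupOf N).index = Nat.card N :=
      Subgroup.card_mul_index _
    rw [Nat.card_congr (Subgroup.subgroupOfEquivOfLe Subgroup.le_normalizer).toEquiv, card_range ι hι,
      show (ι.range.subgroupOf N).index = 2 from hidx] at h2
    omega
  exact ⟨MulEquiv.ofBijective hrel.hom ((Nat.bijective_iff_surjective_and_card _).mpr ⟨hsurj, by rw [card_W, hcardQ]⟩)⟩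

/-- Normal elementary abelian subgroups of order 16 have no further normaliser. -/
theorem normalizer_eq (hS : IsPGroup 2 S) (hr : Cfsg.SectionalPRankLE 2 4 S) (ι : W →* S) (hι : Function.Injective ι)
    (V : Subgroup S) (hV : V ≤ ι.range) (hn : ∀ g ∈ ι.range, ∀ v ∈ V, g * v * g⁻¹ ∈ V)
    (hel : Cfsg.IsElementaryAbelian 2 V) (hcard : Nat.card V = 16) : normalizer (V : Set S) = ι.range := by
  have hmap : (V.comap ι).map ι = V := by
    rw [Subgroup.map_comap_eq, inf_eq_right.mpr hV]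
  have hk : ∃ k, V = (vsub k).map ι := by
    have hc := classify (V.comap ι) (fun g v hv => by
        show ι (g * v * g⁻¹) ∈ V
        rw [map_mul, map_mul, map_inv]; exact hn _ ⟨g, rfl⟩ _ hv)
      (fun a ha b hb => hι (by
        rw [map_mul, map_mul]
        exact congrArg Subtype.val (hel.1.is_comm.comm (⟨ι a, ha⟩ : V) ⟨ι b, hb⟩)))
      (fun a ha => hι (by rw [map_mul, map_one, ← pow_two]; exact hel.2 _ ha))
      (by rw [← Subgroup.card_map_of_injective hι, hmap, hcard])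
    rcases hc with h | h
    · exact ⟨0, by rw [← h, hmap]⟩
    · exact ⟨1, by rw [← h, hmap]⟩
  obtain ⟨k, rfl⟩ := hk
  set L := normalizer (((vsub k).map ι : Subgroup S) : Set S)
  have hRL : ι.range ≤ L := fun g hg => Subgroup.mem_normalizer_iff.mpr fun v =>
    ⟨hn g hg v, fun h => by simpa [mul_assoc] using hn g⁻¹ (ι.range.inv_mem hg) _ h⟩
  refine le_antisymm ?_ hRL
  by_contra hle
  haveI := (hS.to_subgroup L).isNilpotent
  have hne : ι.range.subgroupOf L < ⊤ := lt_top_iff_ne_top.mpr fun h => hle (Subgroup.subgroupOf_eq_top.mp h)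
  obtain ⟨⟨u, hu⟩, hun, hu'⟩ := SetLike.exists_of_lt (normalizerCondition_of_isNilpotent _ hne)
  refine hu' (Subgroup.mem_subgroupOf.mpr (mem_of_stable' hS hr ι hι k ⟨Subgroup.mem_normalizer_iff.mpr fun v => ⟨fun hv => ?_, fun hv => ?_⟩, hu⟩))
  · exact (Subgroup.mem_normalizer_iff.mp hun ⟨v, hRL hv⟩).mp hv
  · have := (Subgroup.mem_normalizer_iff.mp (Subgroup.inv_mem _ hun) ⟨u * v * u⁻¹, hRL hv⟩).mp hv
    simpa [Subgroup.mem_subgroupOf, mul_assoc] using this

end CfsgLib.WreathEight
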