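import Cfsg.Agent.WreathEight.Model

/-!
The wreath product as a Sylow 2-subgroup of the symmetric group of degree 8.
-/

set_option autoImplicit false

namespace CfsgLib.WreathEight

open Equiv

def pa : Perm (Fin 8) := swap 0 1 * swap 1 2 * swap 2 3
def pb : Perm (Fin 8) := swap 1 3
def pt : Perm (Fin 8) := swap 0 4 * swap 1 5 * swap 2 6 * swap 3 7

theorem perm_eqs : pa ^ 4 = 1 ∧ pb * pb = 1 ∧ pb * pa * pb = pa⁻¹ ∧ pt * pt = 1 ∧
    pa * (pt * pa * pt⁻¹) = pt * pa * pt⁻¹ * pa ∧ pa * (pt * pb * pt⁻¹) = pt * pb * pt⁻¹ * pa ∧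
    pb * (pt * pb * pt⁻¹) = pt * pb * pt⁻¹ * pb := by decide +kernel

/-- The relations in the symmetric group. -/
def permRel : Rel pa pb pt :=
  ⟨perm_eqs.1, perm_eqs.2.1, perm_eqs.2.2.1, perm_eqs.2.2.2.1, perm_eqs.2.2.2.2.1, perm_eqs.2.2.2.2.2.1,
    perm_eqs.2.2.2.2.2.2⟩

theorem permRel_injective : Function.Injective permRel.hom :=
  (injective_iff_map_eq_one _).mpr (by decide +kernel)

theorem card_perm_range : Nat.card permRel.hom.range = 128 := by
  rw [← Nat.card_congr (MonoidHom.ofInjective permRel_injective).toEquiv, card_W]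

/-- The Sylow subgroup given by the model. -/
theorem exists_sylow : ∃ T : Sylow 2 (Perm (Fin 8)), (T : Subgroup (Perm (Fin 8))) = permRel.hom.range := by
  refine ⟨Sylow.ofCard permRel.hom.range ?_, rfl⟩
  have h : Nat.factorization (Nat.card (Perm (Fin 8))) 2 = 7 := by
    rw [Nat.card_perm, Nat.card_fin]
    have e : Nat.factorial 8 = 2 ^ 7 * 315 := by decide
    rw [e, Nat.factorization_mul (by norm_num) (by norm_num), Nat.Prime.factorization_pow Nat.prime_two,
      Finsupp.add_apply, Finsupp.single_eq_same, Nat.factorization_eq_zero_of_not_dvd (by norm_num)]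
  rw [card_perm_range, h]
  norm_num

/-- Every Sylow 2-subgroup is isomorphic to the model. -/
theorem nonempty_equiv (T : Sylow 2 (Perm (Fin 8))) : Nonempty (W ≃* (T : Subgroup (Perm (Fin 8)))) := by
  obtain ⟨T₀, hT₀⟩ := exists_sylow
  exact ⟨((MonoidHom.ofInjective permRel_injective).trans (MulEquiv.subgroupCongr hT₀.symm)).trans (T₀.equiv T)⟩

end CfsgLib.WreathEight
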