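import Cfsg.Agent.WreathEight.Model
import Cfsg.Prelude.Def_CaseTheorems
import Cfsg.Prelude.Def_Transfer

/-!
A wreathed subgroup of order 128 in a 2-group of sectional rank at most 4.
-/

set_option autoImplicit false
set_option linter.style.haveILetI false

namespace CfsgLib.WreathEight

open Subgroup

theorem card_filter {M : Subgroup W} (s : Finset W) (h : ∀ w, w ∈ M ↔ w ∈ s) : Nat.card M = s.card := by
  rw [Nat.card_congr (Equiv.subtypeEquivRight h : M ≃ {w // w ∈ s})]
  exact Nat.card_eq_finsetCard s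

theorem card_base : Nat.card base = 64 :=
  (card_filter (Finset.univ.filter fun w => inB w = true) (fun w => by simp [mem_base])).trans (by decide +kernel)

theorem card_zsub : Nat.card zsub = 4 :=
  (card_filter (Finset.univ.filter fun w => inZ w = true) (fun w => by simp [mem_zsub])).trans (by decide +kernel)

theorem card_vsub (k : Fin 2) : Nat.card (vsub k) = 16 := by
  fin_cases k
  · exact (card_filter (Finset.univ.filter fun w => inV 0 w = true) (fun w => by simp [mem_v0])).trans (by decide +kernel)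
  · exact (card_filter (Finset.univ.filter fun w => inV 1 w = true) (fun w => by simp [mem_v1])).trans (by decide +kernel)

theorem mem_vsub (k : Fin 2) (w : W) : w ∈ vsub k ↔ inV (if k = 0 then 0 else 1) w = true := Iff.rfl

/-- The normal elementary abelian subgroups of order 16. -/
theorem classify (U : Subgroup W) (hn : ∀ g, ∀ v ∈ U, g * v * g⁻¹ ∈ U) (hc : ∀ a ∈ U, ∀ b ∈ U, a * b = b * a)
    (he : ∀ a ∈ U, a * a = 1) (hcard : Nat.card U = 16) : U = vsub 0 ∨ U = vsub 1 := by
  have hsub : ∀ v ∈ U, v ∈ vsub 0 ∨ v ∈ vsub 1 := fun v hv => by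
    rcases mem_or_of_conj_commute v (he v hv) (fun g => hc v hv _ (hn g v hv)) with h | h
    · exact .inl h
    · exact .inr h
  have key : ∀ k, U ≤ vsub k → U = vsub k := fun k hle =>
    Subgroup.eq_of_le_of_card_ge hle (by rw [card_vsub, hcard])
  by_contra h
  push Not at h
  obtain ⟨a, ha, ha'⟩ := SetLike.not_le_iff_exists.mp (fun hle => h.1 (key 0 hle))
  obtain ⟨b, hb, hb'⟩ := SetLike.not_le_iff_exists.mp (fun hle => h.2 (key 1 hle))
  have ha1 := (hsub a ha).resolve_left ha'
  have hb0 := (hsub b hb).resolve_right hb'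
  rcases hsub _ (U.mul_mem ha hb) with hab | hab
  · exact ha' (by simpa using (vsub 0).mul_mem hab ((vsub 0).inv_mem hb0))
  · exact hb' (by simpa using (vsub 1).mul_mem ((vsub 1).inv_mem ha1) hab)

theorem vsub_ne : vsub 0 ≠ vsub 1 := fun e => by
  have h : inV 0 U1 = true := (mem_v0 U1).mp (e ▸ (mem_v1 U1).mpr (by decide +kernel))
  rw [misc.2.2.2.2.2.1] at h
  exact Bool.noConfusion h

section Endo

variable (f : W →* W) (hf : Function.Injective f)
include hf

/-- The image of a four-class subgroup is one of the two. -/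
theorem image_cases (k : Fin 2) : (vsub k).map f = vsub 0 ∨ (vsub k).map f = vsub 1 := by
  have hsurj : Function.Surjective f := Finite.surjective_of_injective hf
  refine classify _ ?_ ?_ ?_ (by rw [Subgroup.card_map_of_injective hf, card_vsub])
  · rintro g _ ⟨v, hv, rfl⟩
    obtain ⟨g, rfl⟩ := hsurj g
    exact ⟨g * v * g⁻¹, (vsub_facts k v g hv).2, by simp⟩
  · rintro _ ⟨a, ha, rfl⟩ _ ⟨b, hb, rfl⟩
    have hab := (vsub_facts k (a * b) 1 ((vsub k).mul_mem ha hb)).1
    have haa := (vsub_facts k a 1 ha).1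
    have hbb := (vsub_facts k b 1 hb).1
    rw [← map_mul, ← map_mul]
    refine congrArg f ?_
    calc a * b = a * (a * b * (a * b)) * b := by rw [hab, mul_one]
      _ = (a * a) * (b * a) * (b * b) := by group
      _ = b * a := by rw [haa, hbb, one_mul, mul_one]
  · rintro _ ⟨a, ha, rfl⟩
    rw [← map_mul, (vsub_facts k a 1 ha).1, map_one]

theorem image_zsub : ∀ w, inZ (f w) = true ↔ inZ w = true := by
  have hinter : vsub 0 ⊓ vsub 1 = zsub := by
    ext w
    simp [mem_v0, mem_v1, mem_zsub, inZ]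
  have hmap : zsub.map f = zsub := by
    rw [← hinter, Subgroup.map_inf _ _ _ hf]
    rcases image_cases f hf 0 with h0 | h0 <;> rcases image_cases f hf 1 with h1 | h1
    · exact absurd (Subgroup.map_injective hf (h0.trans h1.symm)) vsub_ne
    · rw [h0, h1]
    · rw [h0, h1, inf_comm]
    · exact absurd (Subgroup.map_injective hf (h0.trans h1.symm)) vsub_ne
  intro w
  have : f w ∈ zsub.map f ↔ w ∈ zsub := by
    refine ⟨fun ⟨v, hv, e⟩ => hf e ▸ hv, fun h => ⟨w, h, rfl⟩⟩
  rw [hmap] at this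
  exact this

theorem image_v1_of_v0 (h : ∀ w, inV 0 w = true → inV 0 (f w) = true) : ∀ w, inV 1 w = true → inV 1 (f w) = true := by
  have h0 : (vsub 0).map f = vsub 0 := by
    refine Subgroup.eq_of_le_of_card_ge ?_ (by rw [Subgroup.card_map_of_injective hf])
    rintro _ ⟨v, hv, rfl⟩
    exact h v hv
  intro w hw
  rcases image_cases f hf 1 with h1 | h1
  · exact absurd (Subgroup.map_injective hf (h0.trans h1.symm)) vsub_ne
  · exact (mem_v1 _).mp (h1.le ⟨w, hw, rfl⟩)

/-- Normalised images of the generators when `f` preserves the two subgroups. -/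
theorem stable_gens (h : ∀ w, inV 0 w = true → inV 0 (f w) = true) (hS : inZ (S1⁻¹ * f S1) = true) :
    inZ (U1⁻¹ * f U1) = true ∧ inZ (S2⁻¹ * f S2) = true ∧ inZ (U2⁻¹ * f U2) = true := by
  have hz := image_zsub f hf
  have h1 := image_v1_of_v0 f hf h
  have hU : ∀ u w : W, inV 1 u = true → inZ u = false → inV 0 w = true → inZ w = false → u * w = w * u →
      inZ (U1⁻¹ * f u) = true ∨ inZ (U2⁻¹ * f u) = true := fun u w hu hu' hw hw' hc =>
    noncentral_v' (f u) (h1 u hu) (Bool.eq_false_iff.mpr fun e => by simp [(hz u).mp e] at hu')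
      ⟨f w, h w hw, Bool.eq_false_iff.mpr fun e => by simp [(hz w).mp e] at hw', by rw [← map_mul, hc, map_mul]⟩
  have e0 : f S1 = S1 * (S1⁻¹ * f S1) := (mul_inv_cancel_left _ _).symm
  have hU1 : inZ (U1⁻¹ * f U1) = true := by
    refine (hU U1 S2 (by decide +kernel) (by decide +kernel) (by decide +kernel) (by decide +kernel) (by decide +kernel)).resolve_right ?_
    intro e
    have hcom := (commute_table _ _ hS e).2.2.1
    rw [← e0, mul_inv_cancel_left, ← map_mul, ← map_mul] at hcom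
    exact absurd (hf hcom) (by decide +kernel)
  have e1 : f U1 = U1 * (U1⁻¹ * f U1) := (mul_inv_cancel_left _ _).symm
  have hS2 : inZ (S2⁻¹ * f S2) = true := by
    refine (noncentral_v (f S2) (h S2 (by decide +kernel)) (Bool.eq_false_iff.mpr fun e => absurd ((hz S2).mp e) (by decide +kernel))
      ⟨f U1, h1 U1 (by decide +kernel), Bool.eq_false_iff.mpr fun e => absurd ((hz U1).mp e) (by decide +kernel),
        by rw [← map_mul, ← map_mul]; exact congrArg f (by decide +kernel)⟩).resolve_left ?_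
    intro e
    have hcom : f S2 * f U1 = f U1 * f S2 := by rw [← map_mul, ← map_mul]; exact congrArg f (by decide +kernel)
    have := (commute_table _ _ e hU1).1
    rw [mul_inv_cancel_left, mul_inv_cancel_left] at this
    exact this hcom
  refine ⟨hU1, hS2, ?_⟩
  refine (hU U2 S1 (by decide +kernel) (by decide +kernel) (by decide +kernel) (by decide +kernel) (by decide +kernel)).resolve_left ?_
  intro e
  have hcom : f S1 * f U2 = f U2 * f S1 := by rw [← map_mul, ← map_mul]; exact congrArg f (by decide +kernel)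
  have := (commute_table _ _ hS e).1
  rw [← e0, mul_inv_cancel_left] at this
  exact this hcom

theorem stable_base (h : ∀ w, inV 0 w = true → inV 0 (f w) = true) (hS : inZ (S1⁻¹ * f S1) = true) :
    (∀ w, inB w = true → inZ (w⁻¹ * f w) = true) ∧ (∀ w, inZ w = true → f w = w) := by
  obtain ⟨hU1, hS2, hU2⟩ := stable_gens f hf h hS
  let M : Subgroup W :=
    { carrier := {w | inB w = true ∧ inZ (w⁻¹ * f w) = true}
      one_mem' := ⟨rfl, by rw [map_one, inv_one, one_mul]; exact zsub.one_mem⟩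
      mul_mem' := fun {a b} ha hb => by
        refine ⟨base.mul_mem ha.1 hb.1, ?_⟩
        have e : (a * b)⁻¹ * f (a * b) = (a⁻¹ * f a) * (b⁻¹ * f b) := by
          rw [map_mul, mul_inv_rev]
          have hc := zsub_comm b⁻¹ (a⁻¹ * f a) (base.inv_mem hb.1) ha.2
          calc b⁻¹ * a⁻¹ * (f a * f b) = (b⁻¹ * (a⁻¹ * f a)) * f b := by group
            _ = (a⁻¹ * f a) * b⁻¹ * f b := by rw [hc]
            _ = (a⁻¹ * f a) * (b⁻¹ * f b) := by group
        rw [e]
        exact zsub.mul_mem ha.2 hb.2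
      inv_mem' := fun {a} ha => by
        refine ⟨base.inv_mem ha.1, ?_⟩
        have e : a⁻¹⁻¹ * f a⁻¹ = (a⁻¹ * f a)⁻¹ := by
          rw [map_inv, inv_inv, mul_inv_rev, inv_inv]
          have hc := zsub_comm a (a⁻¹ * f a)⁻¹ ha.1 (zsub.inv_mem ha.2)
          rw [mul_inv_rev, inv_inv] at hc
          calc a * (f a)⁻¹ = a * ((f a)⁻¹ * a) * a⁻¹ := by group
            _ = (f a)⁻¹ * a * a * a⁻¹ := by rw [hc]
            _ = (f a)⁻¹ * a := by group
        rw [e]
        exact zsub.inv_mem ha.2 }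
  have g1 : S1 ∈ M := ⟨by decide +kernel, hS⟩
  have g2 : U1 ∈ M := ⟨by decide +kernel, hU1⟩
  have g3 : S2 ∈ M := ⟨by decide +kernel, hS2⟩
  have g4 : U2 ∈ M := ⟨by decide +kernel, hU2⟩
  constructor
  · intro w hw
    obtain ⟨i, j, k, l, rfl⟩ := base_word w hw
    exact (M.mul_mem (M.mul_mem (M.pow_mem (M.mul_mem g2 g1) _) (M.pow_mem g1 _))
      (M.mul_mem (M.pow_mem (M.mul_mem g4 g3) _) (M.pow_mem g3 _))).2
  · have ht := comm_sq_table _ _ hS hU1
    have ht2 := comm_sq_table _ _ hS2 hU2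
    have a1 : f Z1 = Z1 := by
      rw [← rel_facts.2.2.2.2.2.1]
      conv_rhs => rw [rel_facts.2.2.2.2.2.1, ← ht.1, mul_inv_cancel_left, mul_inv_cancel_left]
      simp only [map_mul]
    have a2 : f (T * Z1 * T⁻¹) = T * Z1 * T⁻¹ := by
      have hz2 : (U2 * S2) * (U2 * S2) = T * Z1 * T⁻¹ := by decide +kernel
      rw [← hz2]
      conv_rhs => rw [hz2, ← ht2.2, mul_inv_cancel_left, mul_inv_cancel_left]
      simp only [map_mul]
    intro w hw
    rcases zsub_cases w hw with rfl | rfl | rfl | rfl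
    · exact map_one f
    · exact a1
    · exact a2
    · rw [map_mul, a1, a2]

end Endo

variable {S : Type*} [Group S] [Finite S]

/-- A section of rank five. -/
theorem no_five (hr : Cfsg.SectionalPRankLE 2 4 S) (ι : W →* S) (hι : Function.Injective ι) {x : S}
    (hx : x ∉ base.map ι) (hxz : ∀ e, inZ e = true → x * ι e * x⁻¹ = ι e)
    (hxb : ∀ b, inB b = true → ∃ e, inZ e = true ∧ x * ι b * x⁻¹ = ι (b * e))
    (hx2 : x * x ∈ zsub.map ι) : False := by
  set K := base.map ι ⊔ zpowers x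
  set Zi := zsub.map ι
  have hBK : base.map ι ≤ K := le_sup_left
  have hxK : x ∈ K := Subgroup.mem_sup_right (mem_zpowers x)
  have hcen : K ≤ centralizer (Zi : Set S) := by
    refine sup_le ?_ (zpowers_le.mpr ?_)
    · rintro _ ⟨b, hb, rfl⟩
      refine mem_centralizer_iff.mpr ?_
      rintro _ ⟨e, he, rfl⟩
      rw [← map_mul, ← map_mul, zsub_comm b e hb he]
    · refine mem_centralizer_iff.mpr ?_
      rintro _ ⟨e, he, rfl⟩
      exact (mul_inv_eq_iff_eq_mul.mp (hxz e he)).symm
  set N := Zi.subgroupOf K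
  haveI hN : N.Normal := ⟨fun n hn g => by
    have h : (n : S) * g = g * n := mem_centralizer_iff.mp (hcen g.2) _ hn
    have : g * n * g⁻¹ = n := Subtype.ext (by
      show (g : S) * n * (g : S)⁻¹ = n
      rw [← h, mul_inv_cancel_right])
    rwa [this]⟩
  let q := QuotientGroup.mk' N
  have hgen : ∀ M : Subgroup K, (∀ g : K, ((g : S) ∈ base.map ι ∨ (g : S) = x) → g ∈ M) → ∀ g, g ∈ M := by
    intro M hM g
    have hle : K ≤ M.map K.subtype := sup_le (fun u hu => ⟨⟨u, hBK hu⟩, hM _ (.inl hu), rfl⟩)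
      (zpowers_le.mpr ⟨⟨x, hxK⟩, hM _ (.inr rfl), rfl⟩)
    obtain ⟨m, hm, hme⟩ := hle g.2
    rwa [← Subtype.ext hme]
  have hq : ∀ g h : K, (g : S)⁻¹ * h ∈ Zi → q g = q h := fun g h hgh => QuotientGroup.eq.mpr hgh
  have hpair : ∀ g h : K, ((g : S) ∈ base.map ι ∨ (g : S) = x) → ((h : S) ∈ base.map ι ∨ (h : S) = x) →
      q g * q h = q h * q g := by
    intro g h hg hh
    rw [← map_mul, ← map_mul]
    refine hq _ _ ?_
    simp only [Subgroup.coe_mul]
    have hbx : ∀ b, inB b = true → (ι b * x)⁻¹ * (x * ι b) ∈ Zi ∧ (x * ι b)⁻¹ * (ι b * x) ∈ Zi := by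
      intro b hb
      obtain ⟨e, he, heq⟩ := hxb b hb
      rw [mul_inv_eq_iff_eq_mul] at heq
      have hex : ι e * x = x * ι e := by
        have := hxz e he
        rw [mul_inv_eq_iff_eq_mul] at this
        exact this.symm
      have e1 : x * ι b = ι b * x * ι e := by rw [heq, map_mul, mul_assoc, hex, ← mul_assoc]
      rw [e1]
      refine ⟨⟨e, he, by group⟩, ⟨e⁻¹, zsub.inv_mem he, ?_⟩⟩
      rw [map_inv]; group
    rcases hg with ⟨b, hb, hb'⟩ | hg <;> rcases hh with ⟨c, hc, hc'⟩ | hh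
    · rw [← hb', ← hc', ← map_mul, ← map_mul, ← map_inv, ← map_mul]
      refine ⟨_, ?_, rfl⟩
      have := (base_facts c⁻¹ (base.inv_mem hc)).2 b⁻¹ (base.inv_mem hb)
      simpa [mul_assoc] using (show c⁻¹ * b⁻¹ * c⁻¹⁻¹ * b⁻¹⁻¹ ∈ zsub from this)
    · rw [← hb', hh]; exact (hbx b hb).1
    · rw [hg, ← hc']; exact (hbx c hc).2
    · rw [hg, hh]; simp [Zi.one_mem]
  have hcom : ∀ u v : K ⧸ N, u * v = v * u := by
    have h1 : ∀ h : K, ((h : S) ∈ base.map ι ∨ (h : S) = x) → ∀ g : K, q g * q h = q h * q g := fun h hh g =>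
      Subgroup.mem_centralizer_singleton_iff.mp
        (hgen ((centralizer {q h}).comap q) (fun g hg => mem_centralizer_singleton_iff.mpr (hpair g h hg hh)) g)
    intro u v
    obtain ⟨g, rfl⟩ := QuotientGroup.mk'_surjective N u
    obtain ⟨h, rfl⟩ := QuotientGroup.mk'_surjective N v
    have := hgen ((centralizer {q g}).comap q) (fun h hh => mem_centralizer_singleton_iff.mpr (h1 h hh g).symm) h
    exact (mem_centralizer_singleton_iff.mp this).symm
  have hexp : ∀ u : K ⧸ N, u ^ 2 = 1 := by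
    let M : Subgroup (K ⧸ N) :=
      { carrier := {u | u ^ 2 = 1}
        one_mem' := one_pow 2
        mul_mem' := fun {a b} ha hb => by
          show (a * b) ^ 2 = 1
          rw [Commute.mul_pow (hcom a b), show a ^ 2 = 1 from ha, show b ^ 2 = 1 from hb, one_mul]
        inv_mem' := fun {a} ha => by show a⁻¹ ^ 2 = 1; rw [inv_pow, show a ^ 2 = 1 from ha, inv_one] }
    intro u
    obtain ⟨g, rfl⟩ := QuotientGroup.mk'_surjective N u
    refine hgen (M.comap q) (fun h hh => ?_) g
    show q h ^ 2 = 1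
    rw [← map_pow]
    refine (QuotientGroup.eq_one_iff _).mpr (Subgroup.mem_subgroupOf.mpr ?_)
    rw [Subgroup.coe_pow, pow_two]
    rcases hh with ⟨b, hb, hb'⟩ | hh
    · rw [← hb', ← map_mul]; exact ⟨_, (base_facts b hb).1, rfl⟩
    · rw [hh]; exact hx2
  have hbound := hr K N ⊤ ⟨⟨fun u v => Subtype.ext (hcom u v)⟩⟩ (fun u _ => hexp u)
  rw [Subgroup.card_top] at hbound
  have hNcard : Nat.card N = 4 := by
    have hle : Zi ≤ K := le_trans (Subgroup.map_mono fun e he => inZ_inB e he) hBK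
    rw [Nat.card_congr (Subgroup.subgroupOfEquivOfLe hle).toEquiv, Subgroup.card_map_of_injective hι, card_zsub]
  have hK : 128 ≤ Nat.card K := by
    obtain ⟨m, hm⟩ : Nat.card (base.map ι) ∣ Nat.card K := Subgroup.card_dvd_of_le hBK
    have hlt : Nat.card (base.map ι) < Nat.card K :=
      lt_of_le_of_ne (Subgroup.card_le_of_le hBK) fun e => hx ((Subgroup.eq_of_le_of_card_ge hBK e.ge).ge hxK)
    rw [Subgroup.card_map_of_injective hι, card_base] at hm hlt
    rw [hm] at hlt ⊢
    omega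
  have := Subgroup.card_eq_card_quotient_mul_card_subgroup N
  rw [hNcard] at this
  omega

/-- An element outside with square inside. -/
theorem exists_sq_mem (hS : IsPGroup 2 S) (R M : Subgroup S) (h : ¬ M ≤ R) : ∃ x ∈ M, x ∉ R ∧ x * x ∈ R := by
  classical
  obtain ⟨x, hx, hxR⟩ := SetLike.not_le_iff_exists.mp h
  obtain ⟨k, hk⟩ := hS x
  have hex : ∃ j : ℕ, x ^ 2 ^ j ∈ R := ⟨k, by rw [hk]; exact R.one_mem⟩
  obtain ⟨j, hj⟩ : ∃ j, Nat.find hex = j + 1 := Nat.exists_eq_succ_of_ne_zero fun e => by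
    have := Nat.find_spec hex
    rw [e, pow_zero, pow_one] at this
    exact hxR this
  refine ⟨x ^ 2 ^ j, M.pow_mem hx _, Nat.find_min hex (by omega), ?_⟩
  rw [← pow_add, ← two_mul, ← pow_succ', ← hj]
  exact Nat.find_spec hex

/-- Conjugation by a normalising element, read in the model. -/
theorem exists_conj (ι : W →* S) (hι : Function.Injective ι) {x : S} (hx : x ∈ normalizer (ι.range : Set S)) :
    ∃ f : W →* W, Function.Injective f ∧ ∀ w, ι (f w) = x * ι w * x⁻¹ := by
  have h : ∀ w, ∃ w', ι w' = x * ι w * x⁻¹ := fun w => (Subgroup.mem_normalizer_iff.mp hx _).mp ⟨w, rfl⟩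
  choose g hg using h
  refine ⟨MonoidHom.mk' g fun a b => hι ?_, fun a b e => hι ?_, hg⟩
  · rw [map_mul, hg, hg, hg, map_mul]; group
  · have := congrArg ι e
    simp only [MonoidHom.mk'_apply, hg] at this
    exact mul_left_cancel (mul_right_cancel this)

theorem conj_mul {ι : W →* S} {x : S} {f : W →* W} (hf : ∀ w, ι (f w) = x * ι w * x⁻¹) (g w : W) :
    ι (f (g * w * g⁻¹)) = x * ι g * ι w * (x * ι g)⁻¹ := by
  rw [hf, map_mul, map_mul, map_inv]; group

/-- The centraliser of the subgroup lies in it. -/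
theorem centralizer_le (hS : IsPGroup 2 S) (hr : Cfsg.SectionalPRankLE 2 4 S) (ι : W →* S) (hι : Function.Injective ι) :
    centralizer (ι.range : Set S) ≤ ι.range := by
  by_contra h
  obtain ⟨x, hx, hxR, ⟨p, hp⟩⟩ := exists_sq_mem hS ι.range _ h
  have hc : ∀ w, ι w * x = x * ι w := fun w => mem_centralizer_iff.mp hx _ ⟨w, rfl⟩
  refine no_five hr ι hι (fun hm => hxR (Subgroup.map_le_range ι base hm)) (fun e _ => by rw [← hc e, mul_inv_cancel_right])
    (fun b _ => ⟨1, zsub.one_mem, by rw [mul_one, ← hc b, mul_inv_cancel_right]⟩) ⟨p, ?_, hp⟩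
  have hpc : ∀ w, p * w = w * p := fun w => hι (by
    rw [map_mul, map_mul, hp, mul_assoc, ← hc, ← mul_assoc, ← hc, mul_assoc])
  exact centralizer_gens p (hpc _) (hpc _) (hpc _) (hpc _)

/-- Only elements of the subgroup fix a four-class subgroup. -/
theorem mem_of_stable (hS : IsPGroup 2 S) (hr : Cfsg.SectionalPRankLE 2 4 S) (ι : W →* S) (hι : Function.Injective ι) :
    normalizer (ι.range : Set S) ⊓ normalizer (((vsub 0).map ι : Subgroup S) : Set S) ≤ ι.range := by
  by_contra h
  obtain ⟨x₀, ⟨hxn₀, hxv₀⟩, hxR₀, hx2₀⟩ := exists_sq_mem hS ι.range _ h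
  -- adjust by the swap
  obtain ⟨x, hxR, ⟨f, hf, hfx⟩, hfv, hfs, ⟨p, hp⟩⟩ : ∃ x, x ∉ ι.range ∧
      (∃ f : W →* W, Function.Injective f ∧ ∀ w, ι (f w) = x * ι w * x⁻¹) ∧
      (∀ v, inV 0 v = true → ∃ v', inV 0 v' = true ∧ ι v' = x * ι v * x⁻¹) ∧
      (∃ e, inZ e = true ∧ x * ι S1 * x⁻¹ = ι (S1 * e)) ∧ x * x ∈ ι.range := by
    obtain ⟨f, hf, hfx⟩ := exists_conj ι hι hxn₀
    have hv : ∀ v, inV 0 v = true → inV 0 (f v) = true := fun v hv => by
      obtain ⟨v', hv', he⟩ := (Subgroup.mem_normalizer_iff.mp hxv₀ _).mp ⟨v, hv, rfl⟩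
      rwa [hι ((hfx v).trans he.symm)]
    have hz := image_zsub f hf
    have h1 := image_v1_of_v0 f hf hv
    rcases noncentral_v (f S1) (hv S1 (by decide +kernel)) (Bool.eq_false_iff.mpr fun e => absurd ((hz S1).mp e) (by decide +kernel))
      ⟨f U2, h1 U2 (by decide +kernel), Bool.eq_false_iff.mpr fun e => absurd ((hz U2).mp e) (by decide +kernel),
        by rw [← map_mul, ← map_mul]; exact congrArg f (by decide +kernel)⟩ with e | e
    · exact ⟨x₀, hxR₀, ⟨f, hf, hfx⟩, fun v hv' => ⟨f v, hv v hv', hfx v⟩,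
        ⟨_, e, by rw [← hfx, mul_inv_cancel_left]⟩, hx2₀⟩
    · have hS2 : inZ (S1⁻¹ * f S2) = true := by
        refine (noncentral_v (f S2) (hv S2 (by decide +kernel)) (Bool.eq_false_iff.mpr fun e => absurd ((hz S2).mp e) (by decide +kernel))
          ⟨f U1, h1 U1 (by decide +kernel), Bool.eq_false_iff.mpr fun e => absurd ((hz U1).mp e) (by decide +kernel),
            by rw [← map_mul, ← map_mul]; exact congrArg f (by decide +kernel)⟩).resolve_right ?_
        intro e'
        have : inZ (f (S1⁻¹ * S2)) = true := by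
          rw [map_mul, map_inv]
          have := zsub.mul_mem (zsub.inv_mem e) e'
          simpa [mul_assoc, mem_zsub] using this
        rw [hz, misc.2.2.2.2.2.2.2.2.2.2.1] at this
        exact Bool.noConfusion this
      refine ⟨x₀ * ι T, fun hm => hxR₀ ?_, ⟨f.comp (MulAut.conj T).toMonoidHom, hf.comp (MulAut.conj T).injective, fun w => ?_⟩,
        fun v hv' => ⟨f (T * v * T⁻¹), hv _ (vsub_facts 0 v T hv').2, conj_mul hfx T v⟩,
        ⟨_, hS2, by rw [mul_inv_cancel_left, ← rel_facts.2.2.2.1]; exact (conj_mul hfx T S1).symm⟩, ?_⟩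
      · simpa using ι.range.mul_mem hm (ι.range.inv_mem ⟨T, rfl⟩)
      · exact conj_mul hfx T w
      · have hTT : ι T * ι T = 1 := by rw [← map_mul, rel_facts.2.2.1, map_one]
        have hinv : x₀⁻¹ * ι T * x₀ ∈ ι.range := by
          have := (Subgroup.mem_normalizer_iff.mp (Subgroup.inv_mem _ hxn₀) (ι T)).mp ⟨T, rfl⟩
          simpa using this
        have e' : x₀ * ι T * (x₀ * ι T) = (x₀ * x₀) * (x₀⁻¹ * ι T * x₀) * ι T := by group
        rw [e']
        exact ι.range.mul_mem (ι.range.mul_mem hx2₀ hinv) ⟨T, rfl⟩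
  have hv : ∀ v, inV 0 v = true → inV 0 (f v) = true := fun v hv => by
    obtain ⟨v', hv', he⟩ := hfv v hv
    rwa [hι ((hfx v).trans he.symm)]
  obtain ⟨e, he, hee⟩ := hfs
  have hS1 : f S1 = S1 * e := hι (by rw [hfx, hee])
  have hsS : inZ (S1⁻¹ * f S1) = true := by rw [hS1, inv_mul_cancel_left]; exact he
  obtain ⟨hb, hz⟩ := stable_base f hf hv hsS
  refine no_five hr ι hι (fun hm => hxR (Subgroup.map_le_range ι base hm)) (fun u hu => by rw [← hfx, hz u hu])
    (fun b hb' => ⟨_, hb b hb', by rw [mul_inv_cancel_left, hfx]⟩) ⟨p, ?_, hp⟩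
  have hfix : ∀ b, inB b = true → p * b = b * p := fun b hb' => by
    have h2 : f (f b) = b := by
      have hee' := (commute_table _ _ (hb b hb') (hb b hb')).2.2.2.2.2
      conv_lhs => rw [show f b = b * (b⁻¹ * f b) from (mul_inv_cancel_left _ _).symm]
      rw [map_mul, hz _ (hb b hb')]
      calc f b * (b⁻¹ * f b) = b * ((b⁻¹ * f b) * (b⁻¹ * f b)) := by group
        _ = b := by rw [hee', mul_one]
    apply hι
    have h3 : x * (x * ι b * x⁻¹) * x⁻¹ = ι b := by rw [← hfx, ← hfx, h2]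
    rw [map_mul, map_mul, hp]
    calc x * x * ι b = x * (x * ι b * x⁻¹) * x⁻¹ * (x * x) := by group
      _ = ι b * (x * x) := by rw [h3]
  exact centralizer_gens p (hfix _ (by decide +kernel)) (hfix _ (by decide +kernel)) (hfix _ (by decide +kernel))
    (hfix _ (by decide +kernel))

end CfsgLib.WreathEight
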