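import Mathlib

/-!
The wreath product of the dihedral group of order 8 by a group of order 2, with finite facts about it.
-/

set_option autoImplicit false

namespace CfsgLib.WreathEight

/-- The dihedral group of order 8. -/
abbrev D := DihedralGroup 4

/-- The swap action. -/
def sw : Multiplicative (ZMod 2) →* MulAut (D × D) where
  toFun x := if x = 1 then 1 else MulEquiv.prodComm
  map_one' := if_pos rfl
  map_mul' x y := by
    have h : ∀ x : Multiplicative (ZMod 2), x = 1 ∨ x = Multiplicative.ofAdd 1 := by decide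
    rcases h x with rfl | rfl <;> rcases h y with rfl | rfl <;> ext v <;> rfl

/-- The wreath product. -/
abbrev W := (D × D) ⋊[sw] Multiplicative (ZMod 2)

instance : Fintype W := Fintype.ofEquiv _ SemidirectProduct.equivProd.symm

theorem card_W : Nat.card W = 128 := by
  rw [Nat.card_congr SemidirectProduct.equivProd, Nat.card_prod, Nat.card_prod, DihedralGroup.nat_card,
    Nat.card_eq_fintype_card]
  rfl

/-- An element of the base. -/
def el (a b : D) : W := SemidirectProduct.inl (a, b)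

open DihedralGroup in
/-- The Klein subgroup containing `sr k` as a test. -/
def kl (k : ZMod 4) (a : D) : Bool := a == 1 || a == r 2 || a == sr k || a == sr (k + 2)

def inB (w : W) : Bool := w.right == 1
def inV (k : ZMod 4) (w : W) : Bool := inB w && kl k w.left.1 && kl k w.left.2
def inZ (w : W) : Bool := inV 0 w && inV 1 w

open DihedralGroup

def S1 : W := el (sr 0) 1
def S2 : W := el 1 (sr 0)
def U1 : W := el (sr 3) 1
def U2 : W := el 1 (sr 3)
def R1 : W := el (r 1) 1
def R2 : W := el 1 (r 1)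
def Z1 : W := el (r 2) 1
def zz : W := el (r 2) (r 2)
def T : W := SemidirectProduct.inr (Multiplicative.ofAdd 1)

/-- The base subgroup. -/
def base : Subgroup W where
  carrier := {w | inB w = true}
  one_mem' := by rfl
  mul_mem' {a b} ha hb := by simp_all [inB]
  inv_mem' {a} ha := by simp_all [inB]

/-- The centre of the base. -/
def zsub : Subgroup W where
  carrier := {w | inZ w = true}
  one_mem' := by decide +kernel
  mul_mem' {a b} := (by decide +kernel : ∀ a b : W, inZ a = true → inZ b = true → inZ (a * b) = true) a b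
  inv_mem' {a} := (by decide +kernel : ∀ a : W, inZ a = true → inZ a⁻¹ = true) a

/-- The two normal elementary abelian subgroups of order 16. -/
def vsub (k : Fin 2) : Subgroup W where
  carrier := {w | inV (if k = 0 then 0 else 1) w = true}
  one_mem' := (by decide +kernel : ∀ k : Fin 2, inV (if k = 0 then 0 else 1) (1 : W) = true) k
  mul_mem' {a b} := (by decide +kernel : ∀ (k : Fin 2) (a b : W), inV (if k = 0 then 0 else 1) a = true →
    inV (if k = 0 then 0 else 1) b = true → inV (if k = 0 then 0 else 1) (a * b) = true) k a b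
  inv_mem' {a} := (by decide +kernel : ∀ (k : Fin 2) (a : W), inV (if k = 0 then 0 else 1) a = true →
    inV (if k = 0 then 0 else 1) a⁻¹ = true) k a

theorem mem_base (w : W) : w ∈ base ↔ inB w = true := Iff.rfl
theorem mem_zsub (w : W) : w ∈ zsub ↔ inZ w = true := Iff.rfl
theorem mem_v0 (w : W) : w ∈ vsub 0 ↔ inV 0 w = true := Iff.rfl
theorem mem_v1 (w : W) : w ∈ vsub 1 ↔ inV 1 w = true := Iff.rfl

theorem vsub_facts : ∀ (k : Fin 2) (v g : W), inV (if k = 0 then 0 else 1) v = true →
    v * v = 1 ∧ inV (if k = 0 then 0 else 1) (g * v * g⁻¹) = true := by decide +kernel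

theorem mem_or_of_conj_commute : ∀ v : W, v * v = 1 → (∀ g : W, v * (g * v * g⁻¹) = g * v * g⁻¹ * v) →
    inV 0 v = true ∨ inV 1 v = true := by decide +kernel

theorem base_facts : ∀ v : W, inB v = true → inZ (v * v) = true ∧
    ∀ w : W, inB w = true → inZ (v * w * v⁻¹ * w⁻¹) = true := by decide +kernel

theorem centralizer_gens : ∀ p : W, p * S1 = S1 * p → p * U1 = U1 * p → p * S2 = S2 * p → p * U2 = U2 * p →
    inZ p = true := by decide +kernel

theorem center_elt : ∀ p : W, (∀ g : W, p * g = g * p) → p = 1 ∨ p = zz := by decide +kernel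

theorem zz_central : ∀ g : W, zz * g = g * zz := by decide +kernel

/-- An element of a four-class: it has a partner in the other subgroup outside the central part. -/
theorem noncentral_v : ∀ v : W, inV 0 v = true → inZ v = false →
    (∃ w : W, inV 1 w = true ∧ inZ w = false ∧ v * w = w * v) →
    inZ (S1⁻¹ * v) = true ∨ inZ (S2⁻¹ * v) = true := by decide +kernel

theorem noncentral_v' : ∀ v : W, inV 1 v = true → inZ v = false →
    (∃ w : W, inV 0 w = true ∧ inZ w = false ∧ v * w = w * v) →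
    inZ (U1⁻¹ * v) = true ∨ inZ (U2⁻¹ * v) = true := by decide +kernel

theorem commute_table : ∀ e e' : W, inZ e = true → inZ e' = true →
    (S1 * e) * (U1 * e') ≠ (U1 * e') * (S1 * e) ∧ (S2 * e) * (U2 * e') ≠ (U2 * e') * (S2 * e) ∧
    (S1 * e) * (U2 * e') = (U2 * e') * (S1 * e) ∧ (S2 * e) * (U1 * e') = (U1 * e') * (S2 * e) ∧
    e * e' = e' * e ∧ e * e = 1 := by decide +kernel

theorem rel_facts : S1 * S1 = 1 ∧ U1 * U1 = 1 ∧ T * T = 1 ∧ T * S1 * T⁻¹ = S2 ∧ T * U1 * T⁻¹ = U2 ∧
    (U1 * S1) * (U1 * S1) = Z1 ∧ U1 * S1 = R1 ∧ T * R1 * T⁻¹ = R2 ∧ S1 * U1 * S1 = U1 * Z1 ∧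
    S1 * Z1 * U1 = R1 := by decide +kernel

theorem conj_eps : ∀ c e : W, inZ e = true → c * S1 * c⁻¹ = S1 * e → e = 1 ∨ e = Z1 := by decide +kernel

theorem image_T : ∀ t : W, t * t = 1 → inB t = false → inB (T⁻¹ * t) = true ∧
    ∃ b : D, t = T * el b b⁻¹ := by decide +kernel

theorem sq_cases : ∀ c : W, c * S1 * c⁻¹ = S1 * Z1 → c * U1 * c⁻¹ = U1 * Z1 → c * T = T * c →
    c = el (r 1) (r 1) ∨ c = el (r 3) (r 3) := by decide +kernel

theorem sq_facts : ∀ c : W, c = el (r 1) (r 1) ∨ c = el (r 3) (r 3) →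
    ((R1 * R1 * c) * (R1 * R1 * c) = 1 ∨ (R1 * R1 * c) * (R1 * R1 * c) = zz) ∧
    (R2 * R1 * c = 1 ∨ R2 * R1 * c = zz) ∧ R1 * (Z1 * c) = Z1 * (R1 * c) := by decide +kernel

theorem zsub_comm : ∀ v e : W, inB v = true → inZ e = true → v * e = e * v := by decide +kernel

theorem inZ_inB : ∀ e : W, inZ e = true → inB e = true := by decide +kernel

theorem zsub_cases : ∀ e : W, inZ e = true → e = 1 ∨ e = Z1 ∨ e = T * Z1 * T⁻¹ ∨ e = Z1 * (T * Z1 * T⁻¹) := by
  decide +kernel

theorem comm_sq_table : ∀ e e' : W, inZ e = true → inZ e' = true →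
    (U1 * e' * (S1 * e)) * (U1 * e' * (S1 * e)) = Z1 ∧
    (U2 * e' * (S2 * e)) * (U2 * e' * (S2 * e)) = T * Z1 * T⁻¹ := by decide +kernel

theorem base_word : ∀ w : W, inB w = true → ∃ (i : Fin 4) (j : Fin 2) (k : Fin 4) (l : Fin 2),
    w = (U1 * S1) ^ (i : ℕ) * S1 ^ (j : ℕ) * ((U2 * S2) ^ (k : ℕ) * S2 ^ (l : ℕ)) := by decide +kernel

theorem top_split : ∀ w : W, inB w = true ∨ inB (w * T) = true := by decide +kernel

theorem endo_rel : ∀ e : W, inZ e = true → (U1 * e * S1) ^ 4 = 1 ∧ S1 * (U1 * e * S1) * S1 = (U1 * e * S1)⁻¹ ∧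
    (U1 * e * S1) * (T * (U1 * e * S1) * T⁻¹) = (T * (U1 * e * S1) * T⁻¹) * (U1 * e * S1) ∧
    (U1 * e * S1) * (T * S1 * T⁻¹) = (T * S1 * T⁻¹) * (U1 * e * S1) ∧
    S1 * (T * S1 * T⁻¹) = (T * S1 * T⁻¹) * S1 ∧ (U1 * e * S1) * (U1 * e * S1) = Z1 := by decide +kernel

theorem swap_facts : R1 * (U1 * T * U1) = S1 * T * S1 * R1 ∨ R1 * (U1 * T * U1) = S1 * T * S1 * R1 * zz := by
  decide +kernel

theorem bb_facts : T * (S1 * T * S1) = S1 * T * S1 * T ∨ T * (S1 * T * S1) = S1 * T * S1 * T * zz := by decide +kernel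

theorem misc : S1 * R1 * U1 = Z1 ∧ R1 * S1 = U1 ∧ (R1 * Z1⁻¹) * (R1 * Z1⁻¹) = Z1 ∧ S1 * U1 = R1⁻¹ ∧
    S1 * Z1 = Z1 * S1 ∧ inV 0 U1 = false ∧ inV 1 S1 = false ∧ inB T = false ∧ T⁻¹ = T ∧ S1⁻¹ = S1 ∧
    inZ (S1⁻¹ * S2) = false ∧ inZ (U1⁻¹ * U2) = false := by decide +kernel

section Lift

variable {G : Type*} [Group G]

/-- A homomorphism out of the dihedral group. -/
def dihHom (a b : G) (ha : a ^ 4 = 1) (hb : b * b = 1) (hba : b * a * b = a⁻¹) : D →* G where
  toFun x := match x with
    | DihedralGroup.r i => a ^ i.val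
    | DihedralGroup.sr i => b * a ^ i.val
  map_one' := pow_zero a
  map_mul' x y := by
    have hb' : b⁻¹ = b := inv_eq_of_mul_eq_one_right hb
    have hmod : ∀ n : ℕ, a ^ (n % 4) = a ^ n := fun n => (pow_eq_pow_mod n ha).symm
    have hadd : ∀ i j : ZMod 4, a ^ (i + j).val = a ^ i.val * a ^ j.val := fun i j => by
      rw [ZMod.val_add, hmod, pow_add]
    have hsub : ∀ i j : ZMod 4, a ^ (j - i).val = (a ^ i.val)⁻¹ * a ^ j.val := fun i j => by
      rw [eq_inv_mul_iff_mul_eq, ← hadd, add_sub_cancel]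
    have hconj : ∀ n : ℕ, b * a ^ n * b = (a ^ n)⁻¹ := fun n => by
      rw [← inv_pow, ← hba]
      calc b * a ^ n * b = b * a ^ n * b⁻¹ := by rw [hb']
        _ = (b * a * b⁻¹) ^ n := (conj_pow).symm
        _ = (b * a * b) ^ n := by rw [hb']
    have hswap : ∀ n : ℕ, a ^ n * b = b * (a ^ n)⁻¹ := fun n => by
      rw [← hconj n]
      simp only [← mul_assoc, hb, one_mul]
    match x, y with
    | DihedralGroup.r i, DihedralGroup.r j => simpa [DihedralGroup.r_mul_r] using hadd i j
    | DihedralGroup.r i, DihedralGroup.sr j =>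
      simp only [DihedralGroup.r_mul_sr]
      rw [hsub, ← mul_assoc (a ^ i.val), hswap, mul_assoc]
    | DihedralGroup.sr i, DihedralGroup.r j =>
      simp only [DihedralGroup.sr_mul_r]
      rw [hadd, mul_assoc]
    | DihedralGroup.sr i, DihedralGroup.sr j =>
      simp only [DihedralGroup.sr_mul_sr]
      rw [hsub, ← mul_assoc (b * a ^ i.val), mul_assoc b, hswap, ← mul_assoc b b, hb, one_mul]

/-- Generators and relations of the wreath product. -/
structure Rel (a b t : G) : Prop where
  a4 : a ^ 4 = 1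
  b2 : b * b = 1
  bab : b * a * b = a⁻¹
  t2 : t * t = 1
  aa : Commute a (t * a * t⁻¹)
  ab : Commute a (t * b * t⁻¹)
  bb : Commute b (t * b * t⁻¹)

variable {a b t : G}

/-- The homomorphism of the first factor. -/
def Rel.fst (h : Rel a b t) : D →* G := dihHom a b h.a4 h.b2 h.bab

theorem Rel.fst_mem (h : Rel a b t) (M : Subgroup G) (ha : a ∈ M) (hb : b ∈ M) (x : D) : h.fst x ∈ M := by
  cases x with
  | r i => exact M.pow_mem ha _
  | sr i => exact M.mul_mem hb (M.pow_mem ha _)

theorem Rel.comm (h : Rel a b t) (x y : D) : Commute (h.fst x) (t * h.fst y * t⁻¹) := by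
  have htt : t⁻¹ = t := inv_eq_of_mul_eq_one_right h.t2
  have ba : Commute b (t * a * t⁻¹) := by
    have h1 := (h.ab.conj t).symm
    have e : t * (t * b * t⁻¹) * t⁻¹ = b := by
      rw [htt]; simp only [← mul_assoc, h.t2, one_mul, mul_assoc _ t t, mul_one]
    rwa [e] at h1
  have key : ∀ z : G, Commute a z → Commute b z → Commute (h.fst x) z := fun z h1 h2 => by
    have := h.fst_mem (Subgroup.centralizer {z}) (Subgroup.mem_centralizer_singleton_iff.mpr h1.eq)
      (Subgroup.mem_centralizer_singleton_iff.mpr h2.eq) x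
    exact Subgroup.mem_centralizer_singleton_iff.mp this
  have := h.fst_mem ((Subgroup.centralizer {h.fst x}).comap (MulAut.conj t).toMonoidHom)
    (Subgroup.mem_centralizer_singleton_iff.mpr (key _ h.aa ba).eq.symm)
    (Subgroup.mem_centralizer_singleton_iff.mpr (key _ h.ab h.bb).eq.symm) y
  exact (Subgroup.mem_centralizer_singleton_iff.mp this : _).symm

/-- The homomorphism of the base. -/
def Rel.baseHom (h : Rel a b t) : D × D →* G :=
  MonoidHom.noncommCoprod h.fst ((MulAut.conj t).toMonoidHom.comp h.fst) h.comm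

/-- The homomorphism of the top. -/
def Rel.topHom (h : Rel a b t) : Multiplicative (ZMod 2) →* G where
  toFun x := if x = 1 then 1 else t
  map_one' := if_pos rfl
  map_mul' x y := by
    have hx : ∀ x : Multiplicative (ZMod 2), x = 1 ∨ x = Multiplicative.ofAdd 1 := by decide
    rcases hx x with rfl | rfl <;> rcases hx y with rfl | rfl
    · simp
    · simp
    · simp
    · show (if Multiplicative.ofAdd (1 : ZMod 2) * Multiplicative.ofAdd 1 = 1 then (1 : G) else t) = _
      rw [if_pos (by decide), if_neg (by decide)]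
      exact h.t2.symm

/-- The homomorphism out of the wreath product. -/
def Rel.hom (h : Rel a b t) : W →* G :=
  SemidirectProduct.lift h.baseHom h.topHom fun x => by
    have hx : ∀ x : Multiplicative (ZMod 2), x = 1 ∨ x = Multiplicative.ofAdd 1 := by decide
    rcases hx x with rfl | rfl
    · ext v <;> simp [sw]
    · refine MonoidHom.ext fun v => ?_
      obtain ⟨p, q⟩ := v
      show h.baseHom (q, p) = h.topHom (Multiplicative.ofAdd 1) * h.baseHom (p, q) * (h.topHom (Multiplicative.ofAdd 1))⁻¹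
      have ht : h.topHom (Multiplicative.ofAdd 1) = t := by
        show (if Multiplicative.ofAdd (1 : ZMod 2) = 1 then (1 : G) else t) = t
        rw [if_neg (by decide)]
      rw [ht]
      show h.fst q * (t * h.fst p * t⁻¹) = t * (h.fst p * (t * h.fst q * t⁻¹)) * t⁻¹
      have htt : t⁻¹ = t := inv_eq_of_mul_eq_one_right h.t2
      rw [(h.comm q p).eq, htt]
      simp only [← mul_assoc, mul_assoc _ t t, h.t2, mul_one]

theorem Rel.hom_el (h : Rel a b t) (p q : D) : h.hom (el p q) = h.fst p * (t * h.fst q * t⁻¹) := by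
  simp [Rel.hom, el, Rel.baseHom]

theorem Rel.hom_T (h : Rel a b t) : h.hom T = t := by
  simp [Rel.hom, T, Rel.topHom]

theorem Rel.hom_R1 (h : Rel a b t) : h.hom R1 = a := by
  show h.hom (el (r 1) 1) = a
  rw [h.hom_el, map_one]
  simp only [mul_one, mul_inv_cancel]
  exact pow_one a

theorem Rel.hom_S1 (h : Rel a b t) : h.hom S1 = b := by
  show h.hom (el (sr 0) 1) = b
  rw [h.hom_el, map_one]
  simp only [mul_one, mul_inv_cancel]
  show b * a ^ 0 = b
  rw [pow_zero, mul_one]

end Lift

end CfsgLib.WreathEight
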